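import Mathlib.GroupTheory.Sylow
import Mathlib.FieldTheory.Finite.Basic
import Mathlib.NumberTheory.Basic
import Mathlib.Tactic

/-!
Lifting an automizer of a cyclic group of prime order from a quotient: if the `p`-subgroups of the
covering group are abelian and their automizers have exponent prime to `p`, some element of order
`p` carries the same scaling action.
-/

set_option autoImplicit false

namespace CfsgLib.F4AltSection

/-- A `p`-subgroup can be moved into a subgroup of index prime to `p`. -/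
theorem exists_conj_into {G : Type*} [Group G] [Finite G] {p : ℕ} [Fact p.Prime] (A : Subgroup G)
    (hA : ¬ p ∣ A.index) {P : Subgroup G} (hP : IsPGroup p P) :
    ∃ g : G, ∀ a ∈ P, g * a * g⁻¹ ∈ A := by
  obtain ⟨R⟩ : Nonempty (Sylow p ↥A) := inferInstance
  have hcard : Nat.card ↥((R : Subgroup ↥A).map A.subtype) = p ^ (Nat.card G).factorization p := by
    rw [Subgroup.card_map_of_injective A.subtype_injective, R.card_eq_multiplicity,
      ← A.card_mul_index, Nat.factorization_mul Nat.card_pos.ne' Subgroup.index_ne_zero_of_finite,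
      Finsupp.add_apply, Nat.factorization_eq_zero_of_not_dvd hA, add_zero]
  obtain ⟨Q, hQ⟩ := hP.exists_le_sylow
  obtain ⟨g, hg⟩ := MulAction.exists_smul_eq G Q (Sylow.ofCard _ hcard)
  refine ⟨g, fun a ha => Subgroup.map_subtype_le (R : Subgroup ↥A) ?_⟩
  rw [← Sylow.coe_ofCard _ hcard, ← hg, Sylow.coe_subgroup_smul]
  exact Subgroup.smul_mem_pointwise_smul a (MulAut.conj g) _ (hQ ha)

theorem modEq_pow_prime_pow {p a b : ℕ} [Fact p.Prime] (h : a ≡ b [MOD p]) (k : ℕ) :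
    a ^ p ^ k ≡ b ^ p ^ k [MOD p ^ (k + 1)] := by
  rw [Nat.modEq_iff_dvd] at h ⊢
  push_cast
  exact dvd_sub_pow_of_dvd_sub h k

theorem pow_prime_pow_modEq (p a : ℕ) [Fact p.Prime] (k : ℕ) : a ^ p ^ k ≡ a [MOD p] := by
  rw [← ZMod.natCast_eq_natCast_iff, Nat.cast_pow, ZMod.pow_card_pow]

/-- The lifting lemma. -/
theorem exists_lift {H Q : Type*} [Group H] [Finite H] [Group Q] {p : ℕ} [Fact p.Prime]
    (π : H →* Q) (hπ : Function.Surjective π) {s : Q} (hs : orderOf s = p) {M : ℕ} (hM : ¬ p ∣ M)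
    (hab : ∀ P : Subgroup H, IsPGroup p P → ∀ a ∈ P, ∀ b ∈ P, a * b = b * a)
    (haut : ∀ P : Subgroup H, IsPGroup p P → ∀ x : H, (∀ a ∈ P, x * a * x⁻¹ ∈ P) →
      ∀ a ∈ P, x ^ M * a * (x ^ M)⁻¹ = a) :
    ∃ z : H, orderOf z = p ∧ ∀ (q : Q) (j : ℕ), q * s * q⁻¹ = s ^ j →
      ∃ x : H, (∃ k : ℕ, π x = s ^ k * q) ∧ x * z * x⁻¹ = z ^ j := by
  classical
  have hp : p.Prime := Fact.out
  haveI : Finite Q := Finite.of_surjective π hπ
  set H₁ := (Subgroup.zpowers s).comap π with hH₁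
  obtain ⟨R⟩ : Nonempty (Sylow p ↥H₁) := inferInstance
  set P : Subgroup H := (R : Subgroup ↥H₁).map H₁.subtype with hPdef
  have hP : IsPGroup p P := R.2.map _
  have hle : P ≤ H₁ := Subgroup.map_subtype_le _
  have hmem : ∀ a : ↥P, ∃ k : ℕ, π a = s ^ k := fun a => by
    have := (mem_powers_iff_mem_zpowers (x := s) (y := π a)).mpr (hle a.2)
    obtain ⟨k, hk⟩ := this
    exact ⟨k, hk.symm⟩
  obtain ⟨a₀, ha₀⟩ : ∃ a₀ : ↥P, π a₀ = s := by
    have h1 : ¬ (R : Subgroup ↥H₁) ≤ (π.comp H₁.subtype).ker := by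
      intro h
      refine R.not_dvd_index (dvd_trans ?_ (Subgroup.index_dvd_of_le h))
      have hr : (π.comp H₁.subtype).range = Subgroup.zpowers s := by
        rw [MonoidHom.range_comp, Subgroup.range_subtype, hH₁,
          Subgroup.map_comap_eq_self_of_surjective hπ]
      rw [Subgroup.index_ker, hr, Nat.card_zpowers, hs]
    obtain ⟨y, hy, hy'⟩ := SetLike.not_le_iff_exists.mp h1
    have hyP : (y : H) ∈ P := Subgroup.mem_map_of_mem _ hy
    rw [MonoidHom.mem_ker, MonoidHom.comp_apply, Subgroup.subtype_apply] at hy'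
    obtain ⟨k, hk⟩ := hmem ⟨(y : H), hyP⟩
    simp only at hk
    have hk0 : ¬ p ∣ k := fun ⟨c, hc⟩ => hy' (by rw [hk, hc, pow_mul, ← hs, pow_orderOf_eq_one, one_pow])
    obtain ⟨l, hl⟩ := Nat.exists_mul_mod_eq_one_of_coprime
      ((hp.coprime_iff_not_dvd.mpr hk0).symm) hp.one_lt
    refine ⟨⟨(y : H) ^ l, pow_mem hyP l⟩, ?_⟩
    show π ((y : H) ^ l) = s
    rw [map_pow, hk, ← pow_mul, pow_eq_pow_mod (a := s) (k * l) (n := p) (hs ▸ pow_orderOf_eq_one s), hl.2, pow_one]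
  obtain ⟨n, hn⟩ := IsPGroup.iff_card.mp hP
  obtain ⟨n, rfl⟩ : ∃ n', n = n' + 1 := by
    refine Nat.exists_eq_succ_of_ne_zero fun h => ?_
    rw [h, pow_zero] at hn
    have := Subgroup.eq_bot_of_card_eq P hn
    have h2 : (a₀ : H) = 1 := by
      have := a₀.2
      simpa [Subgroup.eq_bot_of_card_eq P hn] using this
    rw [h2, map_one] at ha₀
    rw [← ha₀, orderOf_one] at hs
    exact hp.ne_one hs.symm
  letI : CommGroup ↥P :=
    { (inferInstance : Group ↥P) with mul_comm := fun a b => Subtype.ext (hab P hP a a.2 b b.2) }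
  have hexp : ∀ (a : ↥P) {k l : ℕ}, k ≡ l [MOD p ^ (n + 1)] → a ^ k = a ^ l := fun a k l h => by
    rw [pow_eq_pow_iff_modEq]
    exact h.of_dvd (hn ▸ orderOf_dvd_natCard a)
  let A : Subgroup (MulAut ↥P) :=
    { carrier := {α | ∃ x : H, ∀ a : ↥P, (α a : H) = x * a * x⁻¹}
      one_mem' := ⟨1, fun a => by simp⟩
      mul_mem' := fun {α β} ⟨x, hx⟩ ⟨y, hy⟩ => ⟨x * y, fun a => by
        rw [MulAut.mul_apply, hx, hy]; group⟩
      inv_mem' := fun {α} ⟨x, hx⟩ => ⟨x⁻¹, fun a => by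
        have h := hx (α⁻¹ a)
        rw [MulAut.apply_inv_self] at h
        rw [h]; group⟩ }
  have hAmap : ∀ α : ↥A, ∃ i : ℕ, π ((α : MulAut ↥P) a₀ : ↥P) = s ^ i := fun α => hmem _
  choose i hi using hAmap
  have hact : ∀ (α : ↥A) (a : ↥P) (k : ℕ), π a = s ^ k →
      π ((α : MulAut ↥P) a : ↥P) = s ^ (i α * k) := by
    intro α a k hk
    obtain ⟨x, hx⟩ := α.2
    rw [pow_mul, ← hi, hx, hx, map_mul, map_mul, map_mul, map_mul, hk, map_inv, ← ha₀, conj_pow]
  have hmul : ∀ α β : ↥A, i (α * β) ≡ i α * i β [MOD p] := by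
    intro α β
    rw [← hs, ← pow_eq_pow_iff_modEq, ← hi, ← hact α _ _ (hi β)]
    rfl
  have hone : i 1 ≡ 1 [MOD p] := by
    rw [← hs, ← pow_eq_pow_iff_modEq, ← hi, pow_one]
    exact ha₀
  let χ : ↥A → ℕ := fun α => i α ^ p ^ n
  have hχi : ∀ α, χ α ≡ i α [MOD p] := fun α => pow_prime_pow_modEq p _ n
  have hχ : ∀ α β : ↥A, χ (α * β) ≡ χ α * χ β [MOD p ^ (n + 1)] := fun α β => by
    simp only [χ, ← mul_pow]
    exact modEq_pow_prime_pow (hmul α β) n
  have hAcard : ¬ p ∣ Nat.card ↥A := by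
    intro hd
    obtain ⟨α, hα⟩ := exists_prime_orderOf_dvd_card' p hd
    refine hM (hα ▸ orderOf_dvd_of_pow_eq_one ?_)
    obtain ⟨x, hx⟩ := α.2
    have hpow : ∀ (k : ℕ) (a : ↥P), (((α : MulAut ↥P) ^ k) a : H) = x ^ k * a * (x ^ k)⁻¹ := by
      intro k
      induction k with
      | zero => intro a; simp
      | succ k ih => intro a; rw [pow_succ, MulAut.mul_apply, ih, hx, pow_succ]; group
    refine Subtype.ext (MulEquiv.ext fun a => Subtype.ext ?_)
    rw [SubmonoidClass.coe_pow, hpow]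
    exact haut P hP x (fun b hb => by
      rw [← hx ⟨b, hb⟩]; exact Subtype.coe_prop _) a a.2
  haveI : Fintype ↥A := Fintype.ofFinite _
  set z₀ : ↥P := ∏ α : ↥A, ((α : MulAut ↥P) a₀) ^ χ α⁻¹ with hz₀
  have heig : ∀ β : ↥A, (β : MulAut ↥P) z₀ = z₀ ^ χ β := by
    intro β
    rw [hz₀, map_prod, ← Finset.prod_pow]
    refine Fintype.prod_bijective (fun α => β * α) (Equiv.mulLeft β).bijective _ _ fun α => ?_
    rw [map_pow, ← pow_mul, Subgroup.coe_mul, MulAut.mul_apply]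
    refine hexp _ ?_
    have h := hχ (β * α)⁻¹ β
    rwa [mul_inv_rev, inv_mul_cancel_right, ← mul_inv_rev] at h
  have hπz : π (z₀ : H) = s ^ Fintype.card ↥A := by
    let ψ : ↥P →* ↥(Subgroup.zpowers s) :=
      (π.comp P.subtype).codRestrict _ fun a => hle a.2
    letI : CommGroup ↥(Subgroup.zpowers s) := IsCyclic.commGroup
    have h1 : ψ z₀ = (⟨s, Subgroup.mem_zpowers s⟩ : ↥(Subgroup.zpowers s)) ^ Fintype.card ↥A := by
      rw [hz₀, map_prod, ← Finset.card_univ, ← Finset.prod_const]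
      refine Finset.prod_congr rfl fun α _ => Subtype.ext ?_
      show π (((α : MulAut ↥P) a₀ ^ χ α⁻¹ : ↥P) : H) = s
      rw [Subgroup.coe_pow, map_pow, hi, ← pow_mul]
      conv_rhs => rw [← pow_one s]
      rw [pow_eq_pow_iff_modEq, hs]
      refine ((hχi α⁻¹).mul_left _).trans ((hmul α α⁻¹).symm.trans ?_)
      rw [mul_inv_cancel]
      exact hone
    exact congrArg Subtype.val h1
  have hne : z₀ ≠ 1 := fun h => by
    rw [h, OneMemClass.coe_one, map_one] at hπz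
    refine hAcard ?_
    rw [← hs, Nat.card_eq_fintype_card]
    exact orderOf_dvd_of_pow_eq_one hπz.symm
  have hdvd : p ∣ orderOf z₀ := by
    obtain ⟨k, -, hk⟩ := (Nat.dvd_prime_pow hp).mp (hn ▸ orderOf_dvd_natCard z₀)
    rcases k with _ | k
    · exact absurd (orderOf_eq_one_iff.mp (by rw [hk, pow_zero])) hne
    · exact hk ▸ dvd_pow_self p k.succ_ne_zero
  set z := z₀ ^ (orderOf z₀ / p) with hz
  have hzo : orderOf z = p := orderOf_pow_orderOf_div (orderOf_pos z₀).ne' hdvd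
  refine ⟨z, (Subgroup.orderOf_coe z).trans hzo, fun q j hq => ?_⟩
  obtain ⟨x', rfl⟩ := hπ q
  have hx' : ∀ a ∈ P, x' * a * x'⁻¹ ∈ H₁ := fun a ha => by
    rw [hH₁, Subgroup.mem_comap, map_mul, map_mul, map_inv]
    obtain ⟨k, hk⟩ := hmem ⟨a, ha⟩
    simp only at hk
    rw [hk, ← conj_pow, hq]
    exact pow_mem (pow_mem (Subgroup.mem_zpowers s) j) k
  obtain ⟨g, hg⟩ := exists_conj_into (R : Subgroup ↥H₁) R.not_dvd_index
    (P := (P.map (MulAut.conj x').toMonoidHom).subgroupOf H₁) ((hP.map _).comap_subtype)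
  obtain ⟨k, hk⟩ := (mem_powers_iff_mem_zpowers (x := s) (y := π (g : H))).mpr g.2
  have hx : ∀ a ∈ P, ((g : H) * x') * a * ((g : H) * x')⁻¹ ∈ P := fun a ha => by
    have := Subgroup.mem_map_of_mem H₁.subtype
      (hg ⟨x' * a * x'⁻¹, hx' a ha⟩ (Subgroup.mem_subgroupOf.mpr ⟨a, ha, rfl⟩))
    rw [hPdef, Subgroup.mem_map]
    obtain ⟨u, hu, e⟩ := this
    exact ⟨u, hu, e.trans (by simp [mul_assoc])⟩
  let f : ↥P →* ↥P :=
    { toFun := fun a => ⟨_, hx a a.2⟩
      map_one' := Subtype.ext (by simp)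
      map_mul' := fun a b => Subtype.ext (by simp only [Subgroup.coe_mul]; group) }
  have hf : Function.Bijective f := Finite.injective_iff_bijective.mp fun a b e =>
    Subtype.ext (mul_left_cancel (mul_right_cancel (congrArg Subtype.val e)))
  let α : ↥A := ⟨MulEquiv.ofBijective f hf, (g : H) * x', fun a => rfl⟩
  refine ⟨(g : H) * x', ⟨k, by rw [map_mul, ← hk]⟩, ?_⟩
  have hij : χ α ≡ j [MOD p] := by
    refine (hχi α).trans ?_
    rw [← hs, ← pow_eq_pow_iff_modEq, ← hi]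
    show π (((g : H) * x') * a₀ * ((g : H) * x')⁻¹) = s ^ j
    rw [map_mul, map_mul, map_inv, map_mul, ha₀, ← hk, mul_inv_rev]
    calc s ^ k * π x' * s * ((π x')⁻¹ * (s ^ k)⁻¹) = s ^ k * (π x' * s * (π x')⁻¹) * (s ^ k)⁻¹ := by
          group
      _ = s ^ j := by rw [hq, (Commute.pow_pow_self s k j).eq, mul_inv_cancel_right]
  have h1 : (α : MulAut ↥P) z = z ^ j := by
    rw [hz, map_pow, heig, pow_right_comm, ← hz, pow_eq_pow_iff_modEq, hzo]
    exact hij
  exact congrArg Subtype.val h1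

end CfsgLib.F4AltSection
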