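import Cfsg.Agent.Chevalley.Core
import Cfsg.Agent.Chevalley.Order
import Cfsg.Agent.Chevalley.Parabolic
import Cfsg.Agent.F4AltSection.Lift

/-!
Automizers of subgroups of the split torus of a Chevalley group, and `ℓ`-subgroups when `q - 1` is
divisible by a prime `ℓ` not dividing the order of the Weyl group.
-/

set_option autoImplicit false

namespace CfsgLib.F4AltSection

open Cfsg.Lie CfsgLib.Chevalley

variable {D : ChevalleyDatum} (S : Sys D) {F : Type*} [Field F]
include S

/-- Conjugation between torus elements is done by a single monomial element. -/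
theorem exists_monomial_conj {g : GL D.Idx F} (hg : g ∈ D.group F) :
    ∃ n : ↥(D.monomialSubgroup F), ∀ t ∈ D.diagonalSubgroup F,
      g * t * g⁻¹ ∈ D.diagonalSubgroup F →
        g * t * g⁻¹ = (n : GL D.Idx F) * t * (n : GL D.Idx F)⁻¹ := by
  obtain ⟨b, hb, n, u, hu, e⟩ := S.normal_form_exists F hg
  refine ⟨n, fun t htd ht'd => ?_⟩
  set t' := g * t * g⁻¹ with ht'
  have htn : (n : GL D.Idx F) * t * (n : GL D.Idx F)⁻¹ ∈ D.diagonalSubgroup F :=
    (Subgroup.mem_normalizer_iff.mp (S.monomial_le_normalizer F n.2) t).mp htd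
  have hflip : t⁻¹ * u * t ∈ uSub D F (S.flipSet F n) := by
    obtain ⟨c, hc⟩ := (S.diagonal_eq (F := F)) ▸ inv_mem htd
    have := S.tor_conj_uSub F c hu
    rw [hc, inv_inv] at this
    exact this
  have huV : ∀ u, u ∈ uSub D F (S.flipSet F n) →
        (n : GL D.Idx F) * u * (n : GL D.Idx F)⁻¹ ∈ D.negUnipotent F := by
    intro u hu
    refine closure_conj_mem ?_ hu
    rintro x ⟨r, s, ⟨⟨hr, hr1⟩, -⟩, hx⟩
    obtain ⟨c, -, hct⟩ := S.conj_root F n ⟨r, hr⟩
    rw [S.eq_xG F hx, show S.xG F r s = S.xG F (⟨r, hr⟩ : Fin D.nroots) s from rfl,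
      (hct s).1]
    exact S.xG_mem_negUnipotent F hr1 _
  have heq : b * ((n : GL D.Idx F) * t * (n : GL D.Idx F)⁻¹) * n * (t⁻¹ * u * t) =
      t' * b * n * u := by
    calc _ = b * n * u * t := by group
      _ = g * t * g⁻¹ * g := by rw [← e]; group
      _ = _ := by rw [ht', e]; simp only [mul_assoc]
  obtain ⟨h1, -⟩ := S.normal_form_unique F (mul_mem hb (Subgroup.mem_sup_right htn))
    (mul_mem (Subgroup.mem_sup_right ht'd) hb) (huV _ hflip) (huV _ hu) heq
  obtain ⟨v, hv, c, rfl⟩ := (S.mem_borel F).mp hb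
  have hcd : tor D F c ∈ D.diagonalSubgroup F := by rw [S.diagonal_eq]; exact ⟨c, rfl⟩
  set X := (n : GL D.Idx F) * t * (n : GL D.Idx F)⁻¹ with hX
  have hv' : t'⁻¹ * v * t' ∈ D.posUnipotent F := by
    have := (Subgroup.mem_normalizer_iff.mp (S.diagonal_le_normalizer F (inv_mem ht'd)) v).mp hv
    simpa using this
  have h2 : (t'⁻¹ * v * t')⁻¹ * v ∈ D.posUnipotent F ⊓ D.diagonalSubgroup F := by
    refine Subgroup.mem_inf.mpr ⟨mul_mem (inv_mem hv') hv, ?_⟩
    have e2 : (t'⁻¹ * v * t')⁻¹ * v = t'⁻¹ * tor D F c * X * (tor D F c)⁻¹ := by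
      calc (t'⁻¹ * v * t')⁻¹ * v
          = t'⁻¹ * v⁻¹ * (t' * (v * tor D F c)) * (tor D F c)⁻¹ := by group
        _ = t'⁻¹ * v⁻¹ * (v * tor D F c * X) * (tor D F c)⁻¹ := by rw [h1]
        _ = t'⁻¹ * tor D F c * X * (tor D F c)⁻¹ := by group
    rw [e2]
    exact mul_mem (mul_mem (mul_mem (inv_mem ht'd) hcd) htn) (inv_mem hcd)
  rw [S.posUnipotent_inf_diagonal F, Subgroup.mem_bot, inv_mul_eq_one] at h2
  have e3 : v * tor D F c * X = v * (tor D F c * t') := by
    calc v * tor D F c * X = t' * (v * tor D F c) := h1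
      _ = t' * (t'⁻¹ * v * t') * tor D F c := by rw [h2]; group
      _ = v * (t' * tor D F c) := by group
      _ = _ := by rw [S.diagonal_comm F ht'd hcd]
  rw [mul_assoc] at e3
  exact (mul_left_cancel (mul_left_cancel e3)).symm

/-- Values of conjugate torus elements at corresponding roots. -/
theorem torusVal_perm (n : ↥(D.monomialSubgroup F)) {c c' : ℕ → Fˣ}
    (h : (n : GL D.Idx F) * tor D F c * (n : GL D.Idx F)⁻¹ = tor D F c') (s : Fin D.nroots) :
    torusVal D c' (S.perm F n s) = torusVal D c s := by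
  have hm := (S.exists_mono F n.2).choose_spec
  change Mono D ((n : GL D.Idx F) : Matrix D.Idx D.Idx F) (S.perm F n) at hm
  obtain ⟨row, hrow⟩ := exists_col_ne_zero (n : GL D.Idx F) (Sum.inr s)
  obtain ⟨u, rfl⟩ : ∃ u, row = Sum.inr u := by
    rcases row with i | u
    · exact absurd (hm.2.1 i s) hrow
    · exact ⟨u, rfl⟩
  rw [hm.1 u s hrow] at hrow
  have e := congrArg (fun M : GL D.Idx F => (M : Matrix D.Idx D.Idx F) (Sum.inr (S.perm F n s))
    (Sum.inr s)) (mul_inv_eq_iff_eq_mul.mp h)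
  simp only [Units.val_mul, S.tor_val, dg, Matrix.mul_diagonal, Matrix.diagonal_mul,
    Sum.elim_inr] at e
  rw [mul_comm ((torusVal D c' _ : Fˣ) : F)] at e
  exact (Units.ext (mul_left_cancel₀ hrow e)).symm

/-- Torus values are linear in the root. -/
theorem torusVal_vec (c : ℕ → Fˣ) {s : ℕ} (hs : s < D.nroots) :
    torusVal D c s = ∏ m ∈ Finset.range D.rank, torusVal D c (D.simple m) ^ S.vec m s := by
  simp only [torusVal, ← Finset.prod_zpow]
  rw [Finset.prod_comm]
  refine Finset.prod_congr rfl fun j hj => ?_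
  rw [S.cartan_vec j (Finset.mem_range.mp hj) s hs, ← List.sum_toFinset _ List.nodup_range,
    List.toFinset_range]
  generalize Finset.range D.rank = A
  induction A using Finset.induction_on with
  | empty => simp
  | insert m A hm ih =>
    rw [Finset.sum_insert hm, Finset.prod_insert hm, zpow_add, ih, ← zpow_mul]
    congr 2
    ring

/-- The Weyl group as a group of permutations of the roots. -/
noncomputable def weylPerms : Subgroup (Equiv.Perm (Fin D.nroots)) where
  carrier := {σ | ∃ L : List (Fin D.rank), σ = S.wperm L}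
  one_mem' := ⟨[], rfl⟩
  mul_mem' := fun {a b} ⟨L, hL⟩ ⟨M, hM⟩ => ⟨L ++ M, by rw [S.wperm_append, hL, hM]⟩
  inv_mem' := fun {a} ⟨L, hL⟩ => ⟨L.reverse, by rw [S.wperm_reverse, hL]⟩

theorem natCard_weylPerms :
    Nat.card ↥(weylPerms S) = (S.wSet (List.range D.rank)).card := by
  rw [← Nat.card_eq_finsetCard]
  exact Nat.card_congr (Equiv.subtypeEquivRight fun σ => S.mem_wSet_range.symm)

/-- The order of the Weyl group kills the action on the torus. -/
theorem pow_card_mem_diagonal (n : ↥(D.monomialSubgroup F)) :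
    ((n : GL D.Idx F)) ^ (S.wSet (List.range D.rank)).card ∈ D.diagonalSubgroup F := by
  have h : S.perm F (n ^ (S.wSet (List.range D.rank)).card) = 1 := by
    rw [map_pow, ← natCard_weylPerms S]
    have hmem : S.perm F n ∈ weylPerms S := S.exists_wperm F n
    exact congrArg Subtype.val (pow_card_eq_one' (x := (⟨_, hmem⟩ : ↥(weylPerms S))))
  rw [← MonoidHom.mem_ker, S.ker_perm F, hSub, Subgroup.mem_subgroupOf,
    SubmonoidClass.coe_pow] at h
  exact h

/-- The index of the torus is prime to `ℓ`. -/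
theorem index_diagonal [Fintype F] {ℓ : ℕ} [Fact ℓ.Prime] (hq : ℓ ∣ Fintype.card F - 1)
    (hW : ¬ ℓ ∣ (S.wSet (List.range D.rank)).card) :
    ¬ ℓ ∣ ((D.diagonalSubgroup F).subgroupOf (D.group F)).index := by
  classical
  have h := ((D.diagonalSubgroup F).subgroupOf (D.group F)).card_mul_index
  rw [Nat.card_congr (Subgroup.subgroupOfEquivOfLe (S.diagonal_le_group F)).toEquiv] at h
  set I := ((D.diagonalSubgroup F).subgroupOf (D.group F)).index
  have hI : (I : ℤ) = (Fintype.card F : ℤ) ^ (D.nroots / 2) *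
      S.lenSum (List.range D.rank) (Fintype.card F) := by
    refine mul_left_cancel₀ (a := (Nat.card (D.diagonalSubgroup F) : ℤ))
      (Int.natCast_ne_zero.mpr Nat.card_pos.ne') ?_
    rw [← Nat.cast_mul, h, S.natCard_group F]
    ring
  have hq1 : ((Fintype.card F : ℕ) : ZMod ℓ) = 1 := by
    rw [← Nat.cast_one, ZMod.natCast_eq_natCast_iff, Nat.ModEq.comm,
      Nat.modEq_iff_dvd' Fintype.card_pos]
    exact hq
  intro hd
  refine hW ((ZMod.natCast_eq_zero_iff _ ℓ).mp ?_)
  rw [← ZMod.natCast_eq_zero_iff _ ℓ] at hd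
  have e := congrArg (fun z : ℤ => (z : ZMod ℓ)) hI
  simp only [Int.cast_natCast, Int.cast_mul, Int.cast_pow, hq1, one_pow, one_mul, hd,
    Sys.lenSum, Int.cast_sum, Finset.sum_const, nsmul_eq_mul, mul_one] at e
  exact e.symm

variable [Fintype F] {ℓ : ℕ} [Fact ℓ.Prime] (hq : ℓ ∣ Fintype.card F - 1)
  (hW : ¬ ℓ ∣ (S.wSet (List.range D.rank)).card)
include hq hW

/-- `ℓ`-subgroups are conjugate into the torus. -/
theorem exists_toral {P : Subgroup ↥(D.group F)} (hP : IsPGroup ℓ P) :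
    ∃ g : ↥(D.group F), ∀ a ∈ P, ((g * a * g⁻¹ : ↥(D.group F)) : GL D.Idx F) ∈
      D.diagonalSubgroup F := by
  classical
  exact exists_conj_into _ (index_diagonal S hq hW) hP

theorem abelian_group {P : Subgroup ↥(D.group F)} (hP : IsPGroup ℓ P) :
    ∀ a ∈ P, ∀ b ∈ P, a * b = b * a := by
  obtain ⟨g, hg⟩ := exists_toral S hq hW hP
  intro a ha b hb
  have e : g * a * g⁻¹ * (g * b * g⁻¹) = g * b * g⁻¹ * (g * a * g⁻¹) :=
    Subtype.ext (S.diagonal_comm F (hg a ha) (hg b hb))
  refine mul_left_cancel (a := g) (mul_right_cancel (b := g⁻¹) ?_)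
  simpa [mul_assoc] using e

/-- Automizers of `ℓ`-subgroups have exponent dividing the order of the Weyl group. -/
theorem automizer_group {P : Subgroup ↥(D.group F)} (hP : IsPGroup ℓ P) {x : ↥(D.group F)}
    (hx : ∀ a ∈ P, x * a * x⁻¹ ∈ P) :
    ∀ a ∈ P, x ^ (S.wSet (List.range D.rank)).card * a *
      (x ^ (S.wSet (List.range D.rank)).card)⁻¹ = a := by
  obtain ⟨g, hg⟩ := exists_toral S hq hW hP
  set y := g * x * g⁻¹ with hy
  obtain ⟨n, hn⟩ := exists_monomial_conj S y.2
  have hiter : ∀ (k : ℕ), ∀ a ∈ P, x ^ k * a * (x ^ k)⁻¹ ∈ P ∧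
      ((g * (x ^ k * a * (x ^ k)⁻¹) * g⁻¹ : ↥(D.group F)) : GL D.Idx F) =
        (n : GL D.Idx F) ^ k * (g * a * g⁻¹ : ↥(D.group F)) * ((n : GL D.Idx F) ^ k)⁻¹ := by
    intro k
    induction k with
    | zero => intro a ha; simp [ha]
    | succ k ih =>
      intro a ha
      obtain ⟨h1, h2⟩ := ih a ha
      set b := x ^ k * a * (x ^ k)⁻¹ with hb
      have e : x ^ (k + 1) * a * (x ^ (k + 1))⁻¹ = x * b * x⁻¹ := by rw [hb, pow_succ']; group
      refine ⟨e ▸ hx b h1, ?_⟩
      have e2 : g * (x * b * x⁻¹) * g⁻¹ = y * (g * b * g⁻¹) * y⁻¹ := by rw [hy]; group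
      have hmem : ((y * (g * b * g⁻¹) * y⁻¹ : ↥(D.group F)) : GL D.Idx F) ∈
          D.diagonalSubgroup F := e2 ▸ hg _ (hx b h1)
      rw [e, e2]
      simp only [Subgroup.coe_mul, Subgroup.coe_inv] at hmem ⊢
      rw [hn _ (by simpa using hg b h1) hmem]
      simp only [Subgroup.coe_mul, Subgroup.coe_inv] at h2
      rw [h2, pow_succ']
      group
  intro a ha
  obtain ⟨-, h2⟩ := hiter (S.wSet (List.range D.rank)).card a ha
  rw [S.diagonal_comm F (pow_card_mem_diagonal S n) (hg a ha), mul_inv_cancel_right] at h2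
  exact (MulAut.conj g).injective (Subtype.ext h2)

/-- The lifting lemma inside a group embedded in the Chevalley group. -/
theorem exists_lift_toral {H Q : Type*} [Group H] [Group Q] (f : H →* ↥(D.group F))
    (hf : Function.Injective f) (π : H →* Q) (hπ : Function.Surjective π) {s : Q}
    (hs : orderOf s = ℓ) :
    ∃ z : H, orderOf z = ℓ ∧ ∀ (q : Q) (j : ℕ), q * s * q⁻¹ = s ^ j →
      ∃ x : H, (∃ k : ℕ, π x = s ^ k * q) ∧ x * z * x⁻¹ = z ^ j := by
  classical
  haveI : Finite H := Finite.of_injective f hf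
  refine exists_lift π hπ hs hW (fun P hP a ha b hb => hf ?_) fun P hP x hx a ha => hf ?_
  · simp only [map_mul]
    exact abelian_group S hq hW (hP.map f) _ (Subgroup.mem_map_of_mem _ ha) _
      (Subgroup.mem_map_of_mem _ hb)
  · simp only [map_mul, map_inv, map_pow]
    refine automizer_group S hq hW (hP.map f) (fun b hb => ?_) _ (Subgroup.mem_map_of_mem _ ha)
    obtain ⟨c, hc, rfl⟩ := hb
    rw [← map_inv, ← map_mul, ← map_mul]
    exact Subgroup.mem_map_of_mem _ (hx c hc)

/-- Scaling factors on elements of order `ℓ` have order dividing that of the Weyl group. -/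
theorem scale_pow_card {x z : ↥(D.group F)} {j : ℕ} (hz : orderOf z = ℓ)
    (h : x * z * x⁻¹ = z ^ j) : j ^ (S.wSet (List.range D.rank)).card ≡ 1 [MOD ℓ] := by
  have hP : IsPGroup ℓ (Subgroup.zpowers z) :=
    IsPGroup.of_card (n := 1) (by rw [Nat.card_zpowers, hz, pow_one])
  have hiter : ∀ k : ℕ, x ^ k * z * (x ^ k)⁻¹ = z ^ j ^ k := by
    intro k
    induction k with
    | zero => simp
    | succ k ih =>
      calc x ^ (k + 1) * z * (x ^ (k + 1))⁻¹ = x * (x ^ k * z * (x ^ k)⁻¹) * x⁻¹ := by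
            rw [pow_succ']; group
        _ = _ := by rw [ih, ← conj_pow, h, ← pow_mul, ← pow_succ']
  have h1 := automizer_group S hq hW hP (x := x) (fun a ha => ?_) z (Subgroup.mem_zpowers z)
  · rw [hiter] at h1
    rw [← hz, ← pow_eq_pow_iff_modEq, h1, pow_one]
  · obtain ⟨i, rfl⟩ := Subgroup.mem_zpowers_iff.mp ha
    rw [← conj_zpow, h]
    exact zpow_mem (pow_mem (Subgroup.mem_zpowers z) j) i

end CfsgLib.F4AltSection
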